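import Cfsg.Agent.INV.G2C.Defs
import Cfsg.Agent.INV.CO1.Dat
import Cfsg.Agent.INV.CO1.Bas1
import Cfsg.Agent.INV.ZStarCor
import Cfsg.Agent.TECH.Amb
import Cfsg.Prelude.Def_ClassificationK
import Cfsg.Prelude.Def_ChevG2

/-!
# G2C/Mk : a standard subgroup `G₂(4)` with centraliser of 2-rank one gives the structure `Su`
-/

set_option autoImplicit false
open Cfsg Subgroup CL.MSS

namespace CL.G2C

open F4

universe u

namespace Mk

open CL.Co1S

variable {M : Type*} [Group M] (D : Dat M)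

/-- coordinates on `Q` -/
def Q (b c d e y : F4) : M := D.qa ![0, 0, b, c, d, e] * D.y y

theorem cj_mul (g a b : M) : g * (a * b) * g⁻¹ = g * a * g⁻¹ * (g * b * g⁻¹) := by group
theorem Q_def (b c d e y : F4) : Q D b c d e y = D.xb b * D.x1 c * D.x2 d * D.x3 e * D.y y := rfl
theorem Q_mul (b c d e y b' c' d' e' y' : F4) : Q D b c d e y * Q D b' c' d' e' y' =
    Q D (b + b') (c + c') (d + d') (e + e') (y + y' + e * b' + d * c') := by
  rw [Q, Q, D.qy_mul, Q]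
  exact congrArg₂ _ (D.qa_congr rfl rfl rfl rfl) (congrArg _ (show e * b' + d * c' + y + y' = _ by ring))
theorem Q_inj {b c d e y b' c' d' e' y' : F4} (h : Q D b c d e y = Q D b' c' d' e' y') :
    b = b' ∧ c = c' ∧ d = d' ∧ e = e' ∧ y = y' := D.qa_inj h
theorem Q_congr {b c d e y b' c' d' e' y' : F4} (h : b = b' ∧ c = c' ∧ d = d' ∧ e = e' ∧ y = y') :
    Q D b c d e y = Q D b' c' d' e' y' := by obtain ⟨rfl, rfl, rfl, rfl, rfl⟩ := h; rfl
theorem Qb (s : F4) : D.xb s = Q D s 0 0 0 0 := D.xb_qa s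
theorem Qc (s : F4) : D.x1 s = Q D 0 s 0 0 0 := D.x1_qa s
theorem Qd (s : F4) : D.x2 s = Q D 0 0 s 0 0 := D.x2_qa s
theorem Qe (s : F4) : D.x3 s = Q D 0 0 0 s 0 := D.x3_qa s
theorem Qy (s : F4) : D.y s = Q D 0 0 0 0 s := by
  rw [Q, D.qa_congr (x := ![0, 0, 0, 0, 0, 0]) (x' := 0) rfl rfl rfl rfl, D.qa_zero, one_mul]
theorem Q_of (x : V) (s : F4) : D.qa x * D.y s = Q D (x 2) (x 3) (x 4) (x 5) s := rfl

theorem x_Q (a b c d e y : F4) : D.xa a * Q D b c d e y * (D.xa a)⁻¹ = Q D b (c + a * b) (d + a ^ 2 * b)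
    (e + a * d + a ^ 2 * c + a ^ 3 * b) (y + a ^ 3 * b ^ 2 + a * c ^ 2 + a ^ 2 * b * c) := by
  rw [Q_def, cj_mul, cj_mul, cj_mul, cj_mul, D.a_b, D.a_1, D.a_2, (D.c_a3 a e).eq, ← (D.c_ya y a).eq,
    mul_inv_cancel_right, mul_inv_cancel_right, ← Q_def]
  simp only [Qc, Qd, Qe, Qy, Q_mul]
  exact Q_congr D ⟨by ring, by ring, by ring, by ring, by ring⟩
theorem n_Q (b c d e y : F4) : D.na * Q D b c d e y * D.na⁻¹ = Q D e d c b (y + b * e + c * d) := by
  rw [Q_def, cj_mul, cj_mul, cj_mul, cj_mul, D.na_b, D.na_1, D.na_2, D.na_3, D.na_y]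
  simp only [Qb, Qc, Qd, Qe, Qy, Q_mul]
  exact Q_congr D ⟨by ring, by ring, by ring, by ring, by ring⟩
theorem k_Q (b c d e y : F4) : D.ha * Q D b c d e y * D.ha⁻¹ = Q D b (v * c) (w * d) e y := by
  rw [Q_def, cj_mul, cj_mul, cj_mul, cj_mul, D.ha_b, D.ha_1, D.ha_2, D.ha_3, D.ha_y, Q_def]
theorem h_Q (b c d e y : F4) : D.h * Q D b c d e y * D.h⁻¹ = Q D (w * b) (w * c) (w * d) (w * e) (v * y) := by
  rw [Q, cj_mul, D.h_qa, D.h_y]; rfl
theorem nxn : D.na * D.xa 1 * D.na = D.xa 1 * D.na * D.xa 1 := by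
  have := D.na_a 1
  rw [inv_eq_of_mul_eq_one_right D.na_sq] at this
  rw [this, D.na_eq, ← mul_assoc, ← mul_assoc, ad_sq D.xa_add, one_mul, mul_assoc, ad_sq D.xa_add, mul_one]
theorem m_h : D.nb * D.h * D.nb⁻¹ = D.h * D.h * D.ha * D.ha := by
  have c := D.hab
  have e : D.h * D.h * D.ha * D.ha = D.ha ^ 3 * D.ha * (D.hb ^ 3 * D.hb) := by
    have : D.h * D.h * D.ha * D.ha = (D.ha * D.hb ^ 2) ^ 2 * D.ha ^ 2 := by simp [Dat.h, pow_succ, mul_assoc]
    rw [this, (c.pow_right 2).mul_pow, mul_assoc, ← pow_mul, ← (c.pow_pow 2 (2 * 2)).eq]; group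
  rw [D.nb_h, e, D.ha3, D.hb3, one_mul, one_mul]

theorem cen2 {g : M} (h : g * D.x2 1 = D.x2 1 * g) : ∃ d, Commute (g * D.x2 d) D.ha := by
  have h1 : g ∈ centralizer {D.x2 1} := mem_centralizer_singleton_iff.2 h
  rw [D.cenX] at h1
  suffices (∀ s, Commute g (D.x2 s)) ∧ ∃ d, Commute (g * D.x2 d) D.ha from this.2
  have z : ∀ {g : M}, D.ha * g * D.ha⁻¹ = g → ∃ d, Commute (g * D.x2 d) D.ha := fun e =>
    ⟨0, by rw [ad_zero D.x2_add, mul_one]; exact (mul_inv_eq_iff_eq_mul.1 e).symm⟩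
  clear h
  induction h1 using closure_induction with
  | mem g h =>
    rcases h with (((⟨t, rfl⟩ | ⟨t, rfl⟩) | ⟨t, rfl⟩) | ⟨t, rfl⟩) | ⟨t, rfl⟩
    · exact ⟨ad_comm D.x2_add t, t, by rw [ad_sq D.x2_add]; exact Commute.one_left _⟩
    · exact ⟨fun s => (D.c_23 s t).symm, z (D.ha_3 t)⟩
    · exact ⟨D.c_y2 t, z (D.ha_y t)⟩
    · exact ⟨D.c_b2 t, z (D.ha_b t)⟩
    · refine ⟨fun s => ?_, z (D.ha_mb t)⟩
      rw [← D.nb_b, ← D.nb_2]
      exact (D.c_b2 t s).map (MulAut.conj D.nb)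
  | one => exact ⟨fun s => Commute.one_left _, z (by simp)⟩
  | mul a b _ _ ha hb =>
    obtain ⟨a1, d, a2⟩ := ha
    obtain ⟨b1, d', b2⟩ := hb
    refine ⟨fun s => (a1 s).mul_left (b1 s), d + d', ?_⟩
    rw [D.x2_add, mul_assoc, ← mul_assoc b, (b1 d).eq, mul_assoc, ← mul_assoc]
    exact a2.mul_left b2
  | inv a _ ha =>
    obtain ⟨a1, d, a2⟩ := ha
    refine ⟨fun s => (a1 s).inv_left, d, ?_⟩
    rw [← ad_inv D.x2_add, ← mul_inv_rev, ← (a1 d).eq]
    exact a2.inv_left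

theorem k1 : D.ha ≠ 1 := fun e => by
  have := k_Q D 0 0 1 0 0
  rw [e, one_mul, inv_one, mul_one] at this
  exact absurd (Q_inj D this) (by decide)

theorem odd3 {g : M} (h : g ^ 3 = 1) : Odd (orderOf g) := (by decide : Odd 3).of_dvd_nat (orderOf_dvd_of_pow_eq_one h)

theorem syl [Finite M] {P : Subgroup M} (hP : IsPGroup 2 P) (hq : ∀ b c d e y, Q D b c d e y ∈ P)
    (hx : ∀ a, D.xa a ∈ P) {g : M} (hg : g ∈ P) : ∃ b c d e y a, g = Q D b c d e y * D.xa a := by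
  have : Fact (Nat.Prime 2) := ⟨Nat.prime_two⟩
  have y1 : D.y 1 ∈ P := Qy D 1 ▸ hq ..
  have QP : D.QA ≤ P := fun q h => by obtain ⟨x, t, rfl⟩ := D.mem_QA.1 h; exact hq ..
  have : Nontrivial P := ⟨⟨⟨_, y1⟩, 1, fun e => D.y_ne (congrArg Subtype.val e)⟩⟩
  have := hP.center_nontrivial
  obtain ⟨⟨⟨z, hz⟩, zc⟩, z1⟩ := exists_ne (1 : center P)
  have c : ∀ a ∈ P, a * z = z * a := fun a ha => congrArg Subtype.val (mem_center_iff.1 zc ⟨a, ha⟩)
  obtain ⟨x, t, rfl⟩ := D.mem_QA.1 (D.CQ (j := z) ((D.mem_J one_ne_zero).2 (c _ y1).symm) fun x =>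
    ⟨0, by rw [← c _ (QP (D.qa_QA x)), ad_zero D.y_add]; simp⟩)
  rw [Q_of] at c
  have k : ∀ b' c' d' e', e' * x 2 + d' * x 3 = x 5 * b' + x 4 * c' := fun b' c' d' e' => by
    have := c _ (hq b' c' d' e' 0)
    rw [Q_mul, Q_mul] at this
    linear_combination (Q_inj D this).2.2.2.2
  have e : D.qa x = 1 := by
    rw [← D.qa_zero]
    exact D.qa_congr (by simpa using k 0 0 0 1) (by simpa using k 0 0 1 0) (by simpa using (k 0 1 0 0).symm)
      (by simpa using (k 1 0 0 0).symm)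
  rw [← Q_of, e, one_mul] at c
  have t0 : t ≠ 0 := by
    rintro rfl
    exact z1 (Subtype.ext (Subtype.ext (by simp [e, ad_zero D.y_add])))
  obtain ⟨q, hq', l, hl, rfl⟩ := D.J_dec ((D.mem_J t0).2 (c g hg))
  have lP : l ∈ P := by simpa using mul_mem (inv_mem (QP hq')) hg
  obtain ⟨s, i, rfl | ⟨u, rfl⟩⟩ := D.bruhat hl
  · have h1 : D.ha ^ i ∈ P := by simpa using mul_mem (inv_mem (hx s)) lP
    obtain ⟨n, hn⟩ := pow_two_of_mem hP h1
    rw [eq_one_of_odd (odd3 (by rw [← pow_mul, mul_comm, pow_mul, D.ha3, one_pow])) hn, mul_one]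
    obtain ⟨x, t, rfl⟩ := D.mem_QA.1 hq'
    exact ⟨_, _, _, _, _, _, rfl⟩
  exfalso
  have h1 : D.ha ^ i * D.na ∈ P := by
    simpa [mul_assoc] using mul_mem (mul_mem (inv_mem (hx s)) lP) (inv_mem (hx u))
  have h2 : ∀ (i : ℕ) t, ∃ t', D.ha ^ i * D.ma t' * (D.ha ^ i)⁻¹ = D.ma t := fun i => by
    induction i with
    | zero => exact fun t => ⟨t, by simp⟩
    | succ i ih =>
      intro t
      obtain ⟨t', e⟩ := ih t
      refine ⟨v * t', ?_⟩
      rw [← e, ← (by decide : ∀ t : F4, w * (v * t) = t) t', ← D.ha_ma, (by decide : ∀ t : F4, w * (v * t) = t) t']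
      group
  have h3 : ∀ t, D.ma t ∈ P := fun t => by
    obtain ⟨t', e⟩ := h2 i t
    rw [← e, ← D.na_a, show ∀ a b c : M, a * (b * c * b⁻¹) * a⁻¹ = a * b * c * (a * b)⁻¹ from fun a b c => by group]
    exact mul_mem (mul_mem h1 (hx _)) (inv_mem h1)
  have h4 : D.ha ∈ P := by
    rw [D.ha_eq, D.na_eq]
    exact mul_mem (mul_mem (mul_mem (hx _) (h3 _)) (hx _)) (mul_mem (mul_mem (hx _) (h3 _)) (hx _))
  obtain ⟨n, hn⟩ := pow_two_of_mem hP h4
  exact k1 D (eq_one_of_odd (odd3 D.ha3) hn)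

include D in
theorem cz {g : M} (h : ∀ a, a * g = g * a) : g = 1 := by
  obtain ⟨t, rfl⟩ := D.CJ (a := g) fun j _ => (h j).symm
  have := D.nb_y t
  rw [h, mul_inv_cancel_right, Qy, Qe] at this
  rw [(Q_inj D this).2.2.2.2, ad_zero D.y_add]

variable {G : Type u} [Group G] {ι : M →* G} (hι : Function.Injective ι)

include hι in
theorem act {g : G} (hg : g ∈ normalizer (ι.range : Set G)) :
    ∃ a, (∀ m, g * ι m * g⁻¹ = ι (a * m * a⁻¹)) ∨ ∀ m, g * ι m * g⁻¹ = ι (a * D.φ m * a⁻¹) := by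
  let e := MonoidHom.ofInjective hι
  let θ := (e.trans (ι.range.normalizerMonoidHom ⟨g, hg⟩)).trans e.symm
  have h : ∀ m, ι (θ m) = g * ι m * g⁻¹ := fun m => MonoidHom.apply_ofInjective_symm hι _
  obtain ⟨a, ha | ha⟩ := D.aut θ
  · exact ⟨a, .inl fun m => by rw [← h, ha]⟩
  · exact ⟨a, .inr fun m => by rw [← h, ha]⟩

theorem inner {g : G} {a : M} (h : ∀ m, g * ι m * g⁻¹ = ι (a * m * a⁻¹)) :
    ∃ a ∈ ι.range, ∃ c ∈ centralizer (ι.range : Set G), g = a * c := by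
  refine ⟨ι a, ⟨a, rfl⟩, (ι a)⁻¹ * g, mem_centralizer_iff.2 ?_, by group⟩
  rintro _ ⟨m, rfl⟩
  have := h m
  rw [map_mul, map_mul, map_inv] at this
  calc _ = (ι a)⁻¹ * (ι a * ι m * (ι a)⁻¹) * g := by group
    _ = _ := by rw [← this]; group

end Mk

open CL.Co1S Mk in
/-- PROOF. `φ : F4 ≃+* F` (`CL.F4.nonempty_equiv`), `CharP F 2`, `X r s := e.symm (x_r (φ s))` coerced to `G`
(`xN (stData chevG2 F).x r _`, see `S2180.lean`; indices 6 = b, 7 = a, 8 = c, 9 = d, 10 = e, 11 = y, negatives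
5, 4, 3, 2, 1, 0).  `q b c d e y = X 6 b * X 8 c * X 9 d * X 10 e * X 11 y`, `x a = X 7 a`,
`n = X 7 1 * X 4 1 * X 7 1`, `m = X 6 1 * X 5 1 * X 6 1`, `k = n_7(w) n`, `j = n_6(w) m`, `h = j * j * k`
(`n_r(s) = X r s * X (-r) s⁻¹ * X r s`).  All relations were checked numerically over `F₄`; prove them as word
identities in characteristic 2 (`prod_eq_of_weqM ... (by decide +kernel)`), or via the torus action of the CHEV
library for `h`, `k` (`j`: `q b c d e y ↦ q (v b) (w c) d (v e) (w y)`, `x a ↦ x (v a)`).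
`q_inj`: normal form of `U` (`tor_coords` / S1026, S1027).  `cen1`, `cen2`: S2180 (`X 4 s = n * X 7 s * n`;
for `cen2` induct on the closure: `X 9`, and `X 10, X 11, X 6, X 5` commute with `k` and with `X 9 _`).
`inv`: S2177. `syl`: `U` is Sylow (S2326 / CHEV `sylow`), elements of `U` have the form `q * x`.
`AK`: trivial centre (simplicity). `two`, `out`: S2156 (`exists_idgf graphOK_G2`): conjugation by `g ∈ N(A)` is
inner ∘ diagonal ∘ graph ∘ field; diagonal automorphisms of G₂ are inner (Cartan matrix unimodular), the graph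
automorphism is trivial in characteristic 2, the field automorphism is `1` or Frobenius `σ` (`σ² = 1`); so `g` acts
as `a (·) a⁻¹` or `a σ(·) a⁻¹`; for `out`: `a y(η²) a⁻¹ = y η` for all `η` makes `a` centralise `y 1`, hence (S2180)
all `y η`, so `η² = η`, false.  `t`: `std_inv`; `cN`: `std_tight` (copy both from `INV/SZ8/Mk.lean`);
`rk`: `PRankLE` applied to `closure {c, c'}`; `zs`: `CL.BS.not_isolated_of_simple` (INV/ZStarCor);
`res`: `pResidual 2 G` is normal and contains `k ≠ 1` (or see `SPOR/HK/Out.res_top`). -/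
theorem exists_su {G : Type u} [Group G] [Finite G] [IsSimpleGroup G] (hG : ¬ IsMulCommutative G)
    (L : Subgroup G) (hL : IsStandardSubgroup L) {F : Type*} [Field F] [Fintype F] (hF : Fintype.card F = 4)
    (e : L ≃* Lie.chevG2.group F) (hR : PRankLE 2 1 (centralizer (L : Set G))) : Nonempty (Su G) := by
  have : Fact (Nat.Prime 2) := ⟨Nat.prime_two⟩
  obtain ⟨D⟩ := exists_dat hF
  have : Finite (Lie.chevG2.group F) := Finite.of_equiv _ e.toEquiv
  generalize Lie.chevG2.group F = M0 at *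
  obtain ⟨ι, hι, rfl⟩ : ∃ ι : M0 →* G, Function.Injective ι ∧ ι.range = L :=
    ⟨L.subtype.comp e.symm.toMonoidHom, Subtype.val_injective.comp e.symm.injective, by
      rw [MonoidHom.range_comp, MonoidHom.range_eq_top.2 e.symm.surjective, ← MonoidHom.range_eq_map,
        range_subtype]⟩
  obtain ⟨⟨t, tK⟩, ht⟩ := exists_prime_orderOf_dvd_card' 2 (even_iff_two_dvd.1 hL.2.1.1)
  rw [← orderOf_coe] at ht
  have tt : t * t = 1 := by rw [← pow_two, ← ht]; exact pow_orderOf_eq_one _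
  have t1 : t ≠ 1 := by rintro rfl; simp at ht
  have m : ∀ {a b c : M0}, a * b * a⁻¹ = c → ι a * ι b * (ι a)⁻¹ = ι c := fun h => by simp [← h]
  have m2 : ∀ {a b c d : M0}, a * b = c * d → ι a * ι b = ι c * ι d := fun h => by simpa using congrArg ι h
  exact ⟨{
    A := ι.range, q := fun b c d e y => ι (Q D b c d e y), x := fun a => ι (D.xa a), n := ι D.na, m := ι D.nb
    h := ι D.h, k := ι D.ha, t := t
    qA := fun _ _ _ _ _ => ⟨_, rfl⟩, xA := fun _ => ⟨_, rfl⟩, nA := ⟨_, rfl⟩, mA := ⟨_, rfl⟩, hA := ⟨_, rfl⟩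
    kA := ⟨_, rfl⟩
    q_mul := fun _ _ _ _ _ _ _ _ _ _ => by rw [← map_mul, Q_mul]
    q_inj := fun h => Q_inj D (hι h)
    x_mul := fun _ _ => by rw [← map_mul, D.xa_add]
    x_q := fun _ _ _ _ _ _ => m (x_Q D ..)
    nn := by rw [← map_mul, D.na_sq, map_one]
    n_q := fun _ _ _ _ _ => m (n_Q D ..)
    nxn := by simpa using congrArg ι (nxn D)
    mm := by rw [← map_mul, D.nb_sq, map_one]
    m_x := fun _ => m (Qc D _ ▸ D.nb_a _)
    m_d := fun _ => m (Qd D _ ▸ D.nb_2 _)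
    m_e := fun _ => m (Qe D _ ▸ Qy D _ ▸ D.nb_3 _)
    h3 := by rw [← map_pow, D.h3, map_one]
    k3 := by rw [← map_pow, D.ha3, map_one]
    hk := m2 (D.h_L D.ha_L)
    h_q := fun _ _ _ _ _ => m (h_Q D ..)
    h_x := fun _ => m2 (D.h_L (D.xa_L _))
    h_n := m2 (D.h_L D.na_L)
    k_q := fun _ _ _ _ _ => m (k_Q D ..)
    k_x := fun _ => m (D.ha_a _)
    n_k := by
      rw [m D.na_ha, ← map_inv, eq_inv_of_mul_eq_one_left (a := D.ha * D.ha) (b := D.ha) (by rw [← D.ha3, pow_three'])]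
    m_k := m2 (mul_inv_eq_iff_eq_mul.1 D.nb_ha)
    m_h := by rw [m (m_h D)]; simp
    cen1 := by
      rintro _ ⟨g, rfl⟩ h
      have h1 : g ∈ centralizer {D.y 1} := mem_centralizer_singleton_iff.2 (hι (by simpa [Qy] using h))
      rw [D.cenY] at h1
      refine mem_comap.1 ((closure_le (comap ι _)).2 ?_ h1)
      rintro _ ((((((⟨s, rfl⟩ | ⟨s, rfl⟩) | ⟨s, rfl⟩) | ⟨s, rfl⟩) | ⟨s, rfl⟩) | ⟨s, rfl⟩) | ⟨s, rfl⟩)
      · exact subset_closure (.inr (.inl ⟨_, rfl⟩))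
      · exact subset_closure (.inl ⟨_, _, _, _, _, congrArg ι (Qb D s)⟩)
      · exact subset_closure (.inl ⟨_, _, _, _, _, congrArg ι (Qc D s)⟩)
      · exact subset_closure (.inl ⟨_, _, _, _, _, congrArg ι (Qd D s)⟩)
      · exact subset_closure (.inl ⟨_, _, _, _, _, congrArg ι (Qe D s)⟩)
      · exact subset_closure (.inl ⟨_, _, _, _, _, congrArg ι (Qy D s)⟩)
      · rw [SetLike.mem_coe, mem_comap, ← m (D.na_a s)]
        exact mul_mem (mul_mem (subset_closure (.inr (.inr rfl))) (subset_closure (.inr (.inl ⟨_, rfl⟩))))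
          (inv_mem (subset_closure (.inr (.inr rfl))))
    cen2 := by
      rintro _ ⟨g, rfl⟩ h
      obtain ⟨d, hd⟩ := cen2 D (g := g) (hι (by simpa [Qd] using h))
      exact ⟨d, by simpa [Qd] using congrArg ι hd.eq⟩
    inv := by
      rintro _ ⟨g, rfl⟩ h h1
      rcases D.cls g (hι (by simpa using h)) (by rintro rfl; simp at h1) with h | h <;>
        obtain ⟨c, rfl⟩ := isConj_iff.1 h
      · exact ⟨_, ⟨c⁻¹, rfl⟩, .inl (m (by rw [← Qy]; group))⟩
      · exact ⟨_, ⟨c⁻¹, rfl⟩, .inr (m (by rw [← Qd]; group))⟩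
    syl := fun P hP hp hq hx g hg => by
      obtain ⟨g, rfl⟩ := hP hg
      obtain ⟨b, c, d, e, y, a, rfl⟩ := syl D (hp.comap_of_injective ι hι) hq hx hg
      exact ⟨b, c, d, e, y, a, map_mul ..⟩
    AK := by
      rintro _ ⟨g, rfl⟩ h
      rw [cz D (g := g) fun a => hι (by simpa using mem_centralizer_iff.1 h _ ⟨a, rfl⟩), map_one]
    two := fun g₁ h₁ g₂ h₂ => by
      obtain ⟨a₁, e₁ | e₁⟩ := act D hι h₁
      · exact .inl (inner e₁)
      obtain ⟨a₂, e₂ | e₂⟩ := act D hι h₂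
      · exact .inr (.inl (inner e₂))
      obtain ⟨a₃, e₃ | e₃⟩ := act D hι (mul_mem h₁ h₂)
      · exact .inr (.inr (inner e₃))
      refine absurd (fun s => D.φ.injective (hι ?_)) (D.not_φ ((D.φ.symm (a₁⁻¹ * a₃))⁻¹ * a₂))
      have := e₃ (D.y s)
      rw [show g₁ * g₂ * ι (D.y s) * (g₁ * g₂)⁻¹ = g₁ * (g₂ * ι (D.y s) * g₂⁻¹) * g₁⁻¹ by group, e₂, e₁] at this
      congr 1
      calc _ = a₃⁻¹ * (a₁ * D.φ (a₂ * D.φ (D.y s) * a₂⁻¹) * a₁⁻¹) * a₃ := by simp [mul_assoc]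
        _ = _ := by rw [hι this]; group
    out := fun g hg h => by
      obtain ⟨a, e₁ | e₁⟩ := act D hι hg
      · exact inner e₁
      · exact absurd (fun s => hι (by rw [← e₁, Qy, h]; group)) (D.not_φ a)
    tK := tK, tt := tt, t1 := t1
    cN := fun g h => by
      by_contra hg
      have h1 := hL.2.1.2 g (hL.2.2.2 ▸ hg)
      have h2 : t ∈ (centralizer (ι.range : Set G)).map (MulAut.conj g).toMonoidHom :=
        ⟨t, tK, mul_inv_eq_iff_eq_mul.2 h⟩
      have := Subgroup.orderOf_dvd_natCard _ (mem_inf.2 ⟨tK, h2⟩)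
      exact absurd (ht ▸ h1.of_dvd_nat this) (by decide)
    rk := fun c hc c' hc' cc cc' c1 c1' h => by
      by_contra hne
      have o : ∀ {c} (hc : c ∈ centralizer (ι.range : Set G)), c * c = 1 → c ≠ 1 →
          orderOf (⟨c, hc⟩ : centralizer (ι.range : Set G)) = 2 := fun hc cc c1 => by
        rw [← orderOf_coe]; exact orderOf_eq_prime (by rw [pow_two, cc]) c1
      have k4 := CL.BS.isKleinFour_closure_pair (o hc cc c1) (o hc' cc' c1') (fun e => hne (congrArg Subtype.val e))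
        (Subtype.ext h)
      have := hR _ k4.isMulCommutative fun a ha => by
        rw [pow_two]; exact congrArg Subtype.val (IsKleinFour.mul_self (⟨a, ha⟩ : Subgroup.closure _))
      rw [k4.card_four] at this
      omega
    zs := by
      by_contra! h
      exact CL.BS.not_isolated_of_simple hG t ⟨ht, fun g hg => by_contra fun e => h g e hg.eq.symm⟩
    res := by
      rw [(oU_pResidual_normal.eq_bot_or_eq_top).resolve_left fun e => k1 D (hι (by
        rw [map_one, ← mem_bot, ← e]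
        exact subset_closure (by
          change Nat.Coprime _ _
          rw [orderOf_injective ι hι]; exact Nat.coprime_two_right.2 (odd3 D.ha3))))]
      trivial }⟩

end CL.G2C
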